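import Cfsg.Agent.H141.Rg.Defs
import Cfsg.Agent.Characters.Core
import Cfsg.Agent.Characters.Central

/-!
# S5714 W1: counting pairs with a given quotient in a normal set
-/

set_option autoImplicit false

namespace Cfsg.Agent.H98.Rg

open Cfsg Cfsg.Agent.H141.Rg Cfsg.Agent.Characters.Core Cfsg.Agent.Characters.Central
open scoped ComplexConjugate Classical

universe u

variable {T : Type u} [Group T]

theorem CInv.iff {E : Set T} (hE : CInv E) (x g : T) : g * x * g⁻¹ ∈ E ↔ x ∈ E := by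
  refine ⟨fun h => ?_, fun h => hE x h g⟩
  have := hE _ h g⁻¹
  have e : g⁻¹ * (g * x * g⁻¹) * g⁻¹⁻¹ = x := by group
  rwa [e] at this

/-- the indicator function -/
noncomputable def ind (E : Set T) (x : T) : ℂ := if x ∈ E then 1 else 0

theorem ind_class {E : Set T} (hE : CInv E) : IsClassFunction T (ind E) := by
  intro x g
  unfold ind
  simp only [CInv.iff hE]

omit [Group T] in
theorem conj_ind (E : Set T) (x : T) : conj (ind E x) = ind E x := by
  unfold ind; split_ifs <;> simp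

omit [Group T] in
theorem ind_sq (E : Set T) (x : T) : ind E x * ind E x = ind E x := by
  unfold ind; split_ifs <;> simp

/-- the class sum over a normal set acts as a scalar -/
theorem sum_ind_mul [Fintype T] {E : Set T} (hE : CInv E) {χ : T → ℂ} (hχ : IsIrrCharacter T χ) (u : T) :
    ∑ y, ind E y * χ (y * u) = (∑ y, ind E y * χ y) * χ u / χ 1 := by
  have hne : (Nat.card T : ℂ) ≠ 0 := card_ne_zero_complex
  have h1 : ∀ a : T, ∑ y, ind E y * χ (a * y * a⁻¹ * u) = ∑ y, ind E y * χ (y * u) := by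
    intro a
    refine Fintype.sum_equiv (MulAut.conj a).toEquiv _ _ fun y => ?_
    have e : (MulAut.conj a).toEquiv y = a * y * a⁻¹ := rfl
    rw [e, ind_class hE y a]
  have h2 : (Nat.card T : ℂ) * ∑ y, ind E y * χ (y * u) =
      ∑ y, ind E y * ((Nat.card T : ℂ) * χ y * χ u / χ 1) := by
    have h3 : (Nat.card T : ℂ) * ∑ y, ind E y * χ (y * u) = ∑ _a : T, ∑ y, ind E y * χ (y * u) := by
      rw [Finset.sum_const, Finset.card_univ, Nat.card_eq_fintype_card, nsmul_eq_mul]
    rw [h3, ← Finset.sum_congr rfl fun a _ => h1 a, Finset.sum_comm]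
    refine Finset.sum_congr rfl fun y _ => ?_
    rw [← Finset.mul_sum, sum_char_conj_mul hχ]
  refine mul_left_cancel₀ hne (h2.trans ?_)
  rw [Finset.sum_mul, Finset.sum_div, Finset.mul_sum]
  exact Finset.sum_congr rfl fun y _ => by ring

/-- the number of representations -/
noncomputable def nf [Fintype T] (E : Set T) (z : T) : ℂ := ∑ x, ind E x * ind E (x * z)

theorem nf_class [Fintype T] {E : Set T} (hE : CInv E) : IsClassFunction T (nf E) := by
  intro z g
  unfold nf
  refine Fintype.sum_equiv (MulAut.conj g⁻¹).toEquiv _ _ fun x => ?_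
  have e : (MulAut.conj g⁻¹).toEquiv x = g⁻¹ * x * g⁻¹⁻¹ := rfl
  rw [e, ind_class hE x g⁻¹]
  congr 1
  rw [← ind_class hE (g⁻¹ * x * g⁻¹⁻¹ * z) g]
  congr 1
  group

theorem classInner_nf [Fintype T] {E : Set T} (hE : CInv E) {χ : T → ℂ} (hχ : IsIrrCharacter T χ) :
    classInner (nf E) χ = (Nat.card T : ℂ)⁻¹ *
      ((∑ y, ind E y * χ y) * conj (∑ y, ind E y * χ y) / χ 1) := by
  have h1r : conj (χ 1) = χ 1 := by
    obtain ⟨n, _, hn⟩ := isIrr_apply_one hχ
    rw [hn]; simp
  unfold classInner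
  congr 1
  have h1 : ∑ z, nf E z * conj (χ z) = ∑ x, ind E x * ∑ y, ind E y * conj (χ (x⁻¹ * y)) := by
    unfold nf
    simp only [Finset.sum_mul]
    rw [Finset.sum_comm]
    refine Finset.sum_congr rfl fun x _ => ?_
    rw [Finset.mul_sum]
    refine Fintype.sum_equiv (Equiv.mulLeft x) _ _ fun z => ?_
    simp only [Equiv.coe_mulLeft, inv_mul_cancel_left]
    ring
  rw [h1]
  have h2 : ∀ x : T, ∑ y, ind E y * conj (χ (x⁻¹ * y)) =
      conj (∑ y, ind E y * χ y) * χ x / χ 1 := by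
    intro x
    have h3 := congrArg conj (sum_ind_mul hE hχ x⁻¹)
    rw [map_sum, map_div₀, map_mul, h1r, isCharacter_apply_inv (isIrr_isCharacter hχ), Complex.conj_conj] at h3
    rw [← h3]
    refine Finset.sum_congr rfl fun y _ => ?_
    rw [map_mul, conj_ind]
    congr 2
    have := isIrr_isClassFunction hχ (x⁻¹ * y) x
    rw [← this]
    congr 1
    group
  simp only [h2]
  rw [Finset.sum_mul, Finset.sum_div]
  exact Finset.sum_congr rfl fun x _ => by ring

theorem nf_eq [Fintype T] [Fintype (IrrCharacter T)] {E : Set T} (hE : CInv E) (z : T) :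
    (Nat.card T : ℂ) * nf E z = ∑ χ : IrrCharacter T,
      ((∑ y, ind E y * (χ : T → ℂ) y) * conj (∑ y, ind E y * (χ : T → ℂ) y) / (χ : T → ℂ) 1) * (χ : T → ℂ) z := by
  have hne : (Nat.card T : ℂ) ≠ 0 := card_ne_zero_complex
  conv_lhs => rw [classFunction_eq_sum (nf_class hE)]
  rw [Finset.sum_apply, Finset.mul_sum]
  refine Finset.sum_congr rfl fun χ _ => ?_
  rw [Pi.smul_apply, smul_eq_mul, classInner_nf hE χ.2]
  field_simp

theorem parseval [Fintype T] [Fintype (IrrCharacter T)] {E : Set T} (hE : CInv E) :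
    ∑ χ : IrrCharacter T, (∑ y, ind E y * (χ : T → ℂ) y) * conj (∑ y, ind E y * (χ : T → ℂ) y) =
      (Nat.card T : ℂ) * ∑ y, ind E y := by
  have hne : (Nat.card T : ℂ) ≠ 0 := card_ne_zero_complex
  have h1 := classInner_eq_sum (ind_class hE) (ind_class hE)
  have h2 : classInner (ind E) (ind E) = (Nat.card T : ℂ)⁻¹ * ∑ y, ind E y := by
    unfold classInner
    simp only [conj_ind, ind_sq]
  rw [h2] at h1
  have h3 : ∀ χ : IrrCharacter T, classInner (ind E) (χ : T → ℂ) =
      (Nat.card T : ℂ)⁻¹ * conj (∑ y, ind E y * (χ : T → ℂ) y) := by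
    intro χ
    unfold classInner
    congr 1
    rw [map_sum]
    exact Finset.sum_congr rfl fun y _ => by rw [map_mul, conj_ind]
  simp only [h3] at h1
  have h4 : (Nat.card T : ℂ) * ∑ y, ind E y =
      (Nat.card T : ℂ) ^ 2 * ((Nat.card T : ℂ)⁻¹ * ∑ y, ind E y) := by
    field_simp
  rw [h4, h1, Finset.mul_sum]
  refine Finset.sum_congr rfl fun χ _ => ?_
  rw [map_mul, Complex.conj_conj, map_inv₀, Complex.conj_natCast]
  field_simp

omit [Group T] in
theorem sum_ind [Fintype T] (E : Set T) : ∑ y, ind E y = (Nat.card E : ℂ) := by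
  unfold ind
  rw [Finset.sum_boole, Nat.card_eq_fintype_card, Fintype.card_subtype]

theorem nf_card [Fintype T] (E : Set T) (z : T) : nf E z = (Nat.card {x : T // x ∈ E ∧ x * z ∈ E} : ℂ) := by
  unfold nf ind
  rw [Nat.card_eq_fintype_card, Fintype.card_subtype, ← Finset.sum_boole]
  refine Finset.sum_congr rfl fun x _ => ?_
  by_cases h1 : x ∈ E <;> by_cases h2 : x * z ∈ E <;> simp [h1, h2]

/-- W1 -/
theorem pair_count {T : Type u} [Group T] [Finite T] {E : Set T} (hE : CInv E) {ρ : ℝ} (hρ : 0 ≤ ρ) {z : T}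
    (hz : Rat ρ z) : (Nat.card {x : T // x ∈ E ∧ x * z ∈ E} : ℝ) * Nat.card T ≤
      (Nat.card E : ℝ) ^ 2 + ρ * Nat.card E * Nat.card T := by
  have := Fintype.ofFinite T
  have hfin : Finite (IrrCharacter T) := finite_irr
  have := Fintype.ofFinite (IrrCharacter T)
  have h1 := nf_eq hE z
  rw [nf_card] at h1
  have h2 := parseval hE
  rw [sum_ind] at h2
  set e : IrrCharacter T → ℂ := fun χ => ∑ y, ind E y * (χ : T → ℂ) y with he
  have hee : ∀ χ, e χ * conj (e χ) = ((‖e χ‖ ^ 2 : ℝ) : ℂ) := fun χ => by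
    rw [Complex.mul_conj']; push_cast; rfl
  -- the sum of squares
  have h3 : ∑ χ, ‖e χ‖ ^ 2 = (Nat.card T : ℝ) * Nat.card E := by
    have : ((∑ χ, ‖e χ‖ ^ 2 : ℝ) : ℂ) = (((Nat.card T : ℝ) * Nat.card E : ℝ) : ℂ) := by
      rw [Complex.ofReal_sum]
      simp only [← hee]
      rw [h2]
      push_cast
      rfl
    exact_mod_cast this
  -- termwise estimate
  have h4 : ∀ χ : IrrCharacter T, (e χ * conj (e χ) / (χ : T → ℂ) 1 * (χ : T → ℂ) z).re ≤
      if (χ : T → ℂ) = 1 then (Nat.card E : ℝ) ^ 2 else ρ * ‖e χ‖ ^ 2 := by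
    intro χ
    obtain ⟨n, hn, hχ1⟩ := isIrr_apply_one χ.2
    split_ifs with hc
    · have : e χ = Nat.card E := by
        simp only [he, hc, Pi.one_apply, mul_one]
        exact sum_ind E
      rw [this, hc]
      simp only [Pi.one_apply, div_one, mul_one, Complex.conj_natCast]
      rw [← Nat.cast_mul, Complex.natCast_re, sq, Nat.cast_mul]
    · have hnt : ∃ g, (χ : T → ℂ) g ≠ 1 := by
        by_contra hcon
        push Not at hcon
        exact hc (funext hcon)
      have h5 := hz χ χ.2 hnt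
      rw [hχ1, Complex.natCast_re] at h5
      refine (Complex.re_le_norm _).trans ?_
      rw [hee, norm_mul, norm_div, hχ1, Complex.norm_natCast, Complex.norm_real, Real.norm_of_nonneg (sq_nonneg _)]
      have hn' : (0 : ℝ) < n := by exact_mod_cast hn
      calc ‖e χ‖ ^ 2 / n * ‖(χ : T → ℂ) z‖ ≤ ‖e χ‖ ^ 2 / n * (ρ * n) := by
            exact mul_le_mul_of_nonneg_left h5 (by positivity)
        _ = ρ * ‖e χ‖ ^ 2 := by field_simp
  have h6 : (Nat.card {x : T // x ∈ E ∧ x * z ∈ E} : ℝ) * Nat.card T =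
      ∑ χ : IrrCharacter T, (e χ * conj (e χ) / (χ : T → ℂ) 1 * (χ : T → ℂ) z).re := by
    rw [← Complex.re_sum, ← h1, ← Complex.ofReal_natCast, ← Complex.ofReal_natCast, ← Complex.ofReal_mul,
      Complex.ofReal_re, mul_comm]
  rw [h6]
  refine (Finset.sum_le_sum fun χ _ => h4 χ).trans ?_
  have hone : IsIrrCharacter T (1 : T → ℂ) := isIrr_one
  let χ0 : IrrCharacter T := ⟨1, hone⟩
  rw [← Finset.add_sum_erase Finset.univ _ (Finset.mem_univ χ0)]
  have h7 : ∑ χ ∈ Finset.univ.erase χ0, (if (χ : T → ℂ) = 1 then (Nat.card E : ℝ) ^ 2 else ρ * ‖e χ‖ ^ 2) ≤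
      ρ * (Nat.card E : ℝ) * Nat.card T := by
    calc _ = ∑ χ ∈ Finset.univ.erase χ0, ρ * ‖e χ‖ ^ 2 := by
          refine Finset.sum_congr rfl fun χ hχ => ?_
          rw [if_neg]
          intro h
          exact (Finset.mem_erase.1 hχ).1 (Subtype.ext h)
      _ ≤ ∑ χ, ρ * ‖e χ‖ ^ 2 :=
          Finset.sum_le_sum_of_subset_of_nonneg (Finset.erase_subset _ _) fun χ _ _ => by positivity
      _ = _ := by rw [← Finset.mul_sum, h3]; ring
  have h8 : (if (χ0 : T → ℂ) = 1 then (Nat.card E : ℝ) ^ 2 else ρ * ‖e χ0‖ ^ 2) = (Nat.card E : ℝ) ^ 2 := if_pos rfl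
  rw [h8]
  linarith

end Cfsg.Agent.H98.Rg
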